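import Cfsg.Agent.Lib.Helper18.SylLink
import Cfsg.Agent.Lib.Helper18.Large

set_option autoImplicit false

namespace Cfsg.Agent.Lib.Helper18

variable {G : Type*} [Group G] {p : ℕ}

/-- Chains of Sylow subgroups of `M` (as subgroups of `G`) linked through the normalisers of
members of `f P`, `P` a Sylow subgroup of `M`; every link contains `D`. -/
inductive RLinked (p : ℕ) (f : Subgroup G → Set (Subgroup G)) (M D : Subgroup G) :
    Subgroup G → Subgroup G → Prop
  | refl (S : Subgroup G) : RLinked p f M D S S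
  | step {S S' T : Subgroup G} (P F : Subgroup G) (x : G) (hP : IsSylowIn p P M) (hF : F ∈ f P)
      (hS : S ≤ Subgroup.normalizer (F : Set G)) (hS' : S' ≤ Subgroup.normalizer (F : Set G))
      (hxM : x ∈ M) (hxF : x ∈ Subgroup.normalizer (F : Set G))
      (hc : S' = S.map (MulAut.conj x).toMonoidHom) (hD : D ≤ S')
      (h : RLinked p f M D S' T) : RLinked p f M D S T

theorem RLinked.trans {f : Subgroup G → Set (Subgroup G)} {M D A B C : Subgroup G}
    (h1 : RLinked p f M D A B) (h2 : RLinked p f M D B C) : RLinked p f M D A C := by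
  induction h1 with
  | refl S => exact h2
  | step P F x hP hF hS hS' hxM hxF hc hD h ih =>
    exact RLinked.step P F x hP hF hS hS' hxM hxF hc hD (ih h2)

theorem RLinked.mono {f : Subgroup G → Set (Subgroup G)} {M D D' A B : Subgroup G}
    (hDD : D' ≤ D) (h : RLinked p f M D A B) : RLinked p f M D' A B := by
  induction h with
  | refl S => exact RLinked.refl S
  | step P F x hP hF hS hS' hxM hxF hc hD h ih =>
    exact RLinked.step P F x hP hF hS hS' hxM hxF hc (hDD.trans hD) ih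

theorem RLinked.lift {f : Subgroup G → Set (Subgroup G)} {M M' D A B : Subgroup G}
    (hMM : M ≤ M') (hSyl : ∀ P, IsSylowIn p P M → IsSylowIn p P M')
    (h : RLinked p f M D A B) : RLinked p f M' D A B := by
  induction h with
  | refl S => exact RLinked.refl S
  | step P F x hP hF hS hS' hxM hxF hc hD h ih =>
    exact RLinked.step P F x (hSyl P hP) hF hS hS' (hMM hxM) hxF hc hD ih

theorem RLinked.map_conj {f : Subgroup G → Set (Subgroup G)} (hf : Cfsg.IsNormalizerFunctor p f)
    {M D A B : Subgroup G} (g : G) (h : RLinked p f M D A B) :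
    RLinked p f (M.map (MulAut.conj g).toMonoidHom) (D.map (MulAut.conj g).toMonoidHom)
      (A.map (MulAut.conj g).toMonoidHom) (B.map (MulAut.conj g).toMonoidHom) := by
  induction h with
  | refl S => exact RLinked.refl _
  | @step S S' T P F x hP hF hS hS' hxM hxF hc hD h ih =>
    refine RLinked.step (P.map (MulAut.conj g).toMonoidHom) (F.map (MulAut.conj g).toMonoidHom)
      (g * x * g⁻¹) (hP.map_conj g) ?_ ?_ ?_ (conj_mem_map_conj M g hxM) ?_ ?_
      (Subgroup.map_mono hD) ih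
    · rw [(hf P hP.2.1).2 g]
      exact ⟨F, hF, rfl⟩
    · rw [normalizer_map_conj]; exact Subgroup.map_mono hS
    · rw [normalizer_map_conj]; exact Subgroup.map_mono hS'
    · rw [normalizer_map_conj]; exact conj_mem_map_conj _ g hxF
    · rw [hc, ← map_conj_mul, ← map_conj_mul]
      congr 3
      group

/-- `G`-level form of `f`-regularity of the subgroup `M`. -/
def RegIn (p : ℕ) (f : Subgroup G → Set (Subgroup G)) (M : Subgroup G) : Prop :=
  ∀ S T : Subgroup G, IsSylowIn p S M → IsSylowIn p T M → S ≠ T → S ⊓ T ≠ ⊥ →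
    RLinked p f M (S ⊓ T) S T

theorem mem_functorFamily_iff {f : Subgroup G → Set (Subgroup G)} {M X : Subgroup G} :
    X ∈ Cfsg.functorFamily p f M ↔
      ∃ P, IsSylowIn p P M ∧ ∃ F ∈ f P, X = M ⊓ Subgroup.normalizer (F : Set G) := by
  constructor
  · rintro ⟨P, F, hF, rfl⟩
    exact ⟨_, isSylowIn_map_subtype M P, F, hF, rfl⟩
  · rintro ⟨P, hP, F, hF, rfl⟩
    obtain ⟨P₀, rfl⟩ := hP.exists_sylow
    exact ⟨P₀, F, hF, rfl⟩

theorem freg_map_subtype_map_conj (M : Subgroup G) (A : Subgroup ↥M) (x : ↥M) :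
    (A.map (MulAut.conj x).toMonoidHom).map M.subtype =
      (A.map M.subtype).map (MulAut.conj (x : G)).toMonoidHom := by
  rw [Subgroup.map_map, Subgroup.map_map]
  congr 1

theorem rlinked_of_linked [Finite G] [Fact p.Prime] {f : Subgroup G → Set (Subgroup G)}
    (hf : Cfsg.IsNormalizerFunctor p f) (M : Subgroup G) {D₀ : Subgroup ↥M} {A B : Sylow p ↥M}
    (h : Linked p ((fun X : Subgroup G => X.subgroupOf M) '' Cfsg.functorFamily p f M) D₀ A B) :
    RLinked p f M (D₀.map M.subtype) ((A : Subgroup ↥M).map M.subtype)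
      ((B : Subgroup ↥M).map M.subtype) := by
  induction h with
  | refl S => exact RLinked.refl _
  | @step S S' T X x h1 h2 hx hc hD h ih =>
    obtain ⟨Y, ⟨P, F, hF, rfl⟩, rfl⟩ := h1.1
    have hPF : (P : Subgroup ↥M).map M.subtype ≤ Subgroup.normalizer (F : Set G) :=
      Subgroup.le_normalizer.trans ((hf _ (P.isPGroup'.map _)).1 F hF).2
    have hPX : (P : Subgroup ↥M) ≤ (M ⊓ Subgroup.normalizer (F : Set G)).subgroupOf M := by
      intro y hy
      rw [Subgroup.mem_subgroupOf]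
      exact Subgroup.mem_inf.mpr ⟨y.2, hPF ⟨y, hy, rfl⟩⟩
    have hSX := sylow_le_of_mem_sylowMembers P S hPX h1
    have hS'X := sylow_le_of_mem_sylowMembers P S' hPX h2
    refine RLinked.step ((P : Subgroup ↥M).map M.subtype) F (x : G) (isSylowIn_map_subtype M P)
      hF ?_ ?_ x.2 ?_ ?_ (Subgroup.map_mono (hD.trans inf_le_left)) ih
    · rintro _ ⟨y, hy, rfl⟩
      exact (Subgroup.mem_inf.mp (Subgroup.mem_subgroupOf.mp (hSX hy))).2
    · rintro _ ⟨y, hy, rfl⟩
      exact (Subgroup.mem_inf.mp (Subgroup.mem_subgroupOf.mp (hS'X hy))).2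
    · exact (Subgroup.mem_inf.mp (Subgroup.mem_subgroupOf.mp hx)).2
    · unfold Cfsg.subgroupConjRight at hc
      have hc' : (S' : Subgroup ↥M) = (S : Subgroup ↥M).map (MulAut.conj x).toMonoidHom := by
        rw [← hc, map_conj_map_conj_inv]
      rw [hc', freg_map_subtype_map_conj]

theorem regIn_of_isFunctorRegular [Finite G] [Fact p.Prime] {f : Subgroup G → Set (Subgroup G)}
    (hf : Cfsg.IsNormalizerFunctor p f) {M : Subgroup G} (h : Cfsg.IsFunctorRegular p f M) :
    RegIn p f M := by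
  intro S T hS hT hne hint
  obtain ⟨S₀, rfl⟩ := hS.exists_sylow
  obtain ⟨T₀, rfl⟩ := hT.exists_sylow
  have hne₀ : S₀ ≠ T₀ := fun e => hne (by rw [e])
  have hinf : ((S₀ : Subgroup ↥M) ⊓ (T₀ : Subgroup ↥M)).map M.subtype =
      (S₀ : Subgroup ↥M).map M.subtype ⊓ (T₀ : Subgroup ↥M).map M.subtype :=
    Subgroup.map_inf _ _ _ M.subtype_injective
  have hint₀ : (S₀ : Subgroup ↥M) ⊓ (T₀ : Subgroup ↥M) ≠ ⊥ := by
    intro e; apply hint; rw [← hinf, e, Subgroup.map_bot]
  have h1 := (controls_iff_linked.mp h) S₀ T₀ hne₀ hint₀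
  have h2 := rlinked_of_linked hf M h1
  rwa [hinf] at h2

theorem linked_of_rlinked [Finite G] [Fact p.Prime] {f : Subgroup G → Set (Subgroup G)}
    (M : Subgroup G) {D A B : Subgroup G} (h : RLinked p f M D A B) :
    ∀ A₀ : Sylow p ↥M, (A₀ : Subgroup ↥M).map M.subtype = A →
      ∃ B₀ : Sylow p ↥M, (B₀ : Subgroup ↥M).map M.subtype = B ∧
        Linked p ((fun X : Subgroup G => X.subgroupOf M) '' Cfsg.functorFamily p f M)
          (D.comap M.subtype) A₀ B₀ := by
  induction h with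
  | refl S => intro A₀ hA; exact ⟨A₀, hA, Linked.refl _⟩
  | @step S S' T P F x hP hF hS hS' hxM hxF hc hD h ih =>
    intro A₀ hA
    have hA' : (((⟨x, hxM⟩ : ↥M) • A₀ : Sylow p ↥M) : Subgroup ↥M).map M.subtype = S' := by
      rw [coe_smul_sylow, freg_map_subtype_map_conj, hA, hc]
    obtain ⟨B₀, hB, hL⟩ := ih _ hA'
    refine ⟨B₀, hB, Linked.step ((M ⊓ Subgroup.normalizer (F : Set G)).subgroupOf M) ⟨x, hxM⟩
      ?_ ?_ ?_ ?_ ?_ hL⟩
    · apply mem_sylowMembers_of_le
      · obtain ⟨P₀, rfl⟩ := hP.exists_sylow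
        exact ⟨_, ⟨P₀, F, hF, rfl⟩, rfl⟩
      · intro a ha
        rw [Subgroup.mem_subgroupOf]
        refine Subgroup.mem_inf.mpr ⟨a.2, hS ?_⟩
        rw [← hA]; exact ⟨a, ha, rfl⟩
    · apply mem_sylowMembers_of_le
      · obtain ⟨P₀, rfl⟩ := hP.exists_sylow
        exact ⟨_, ⟨P₀, F, hF, rfl⟩, rfl⟩
      · intro a ha
        rw [Subgroup.mem_subgroupOf]
        refine Subgroup.mem_inf.mpr ⟨a.2, hS' ?_⟩
        rw [← hA']; exact ⟨a, ha, rfl⟩
    · rw [Subgroup.mem_subgroupOf]; exact Subgroup.mem_inf.mpr ⟨hxM, hxF⟩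
    · unfold Cfsg.subgroupConjRight
      rw [coe_smul_sylow, map_conj_inv_map_conj]
    · intro d hd
      have hdS' : (d : G) ∈ S' := hD hd
      refine Subgroup.mem_inf.mpr ⟨?_, ?_⟩
      · have h3 := hdS'
        rw [← hA'] at h3
        obtain ⟨y, hy, e⟩ := h3
        have : y = d := Subtype.ext e
        rw [← this]; exact hy
      · rw [Subgroup.mem_subgroupOf]; exact Subgroup.mem_inf.mpr ⟨d.2, hS' hdS'⟩

theorem isFunctorRegular_of_regIn [Finite G] [Fact p.Prime] {f : Subgroup G → Set (Subgroup G)}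
    {M : Subgroup G} (h : RegIn p f M) : Cfsg.IsFunctorRegular p f M := by
  unfold Cfsg.IsFunctorRegular
  rw [controls_iff_linked]
  intro S₀ T₀ hne hint
  have hinf : ((S₀ : Subgroup ↥M) ⊓ (T₀ : Subgroup ↥M)).map M.subtype =
      (S₀ : Subgroup ↥M).map M.subtype ⊓ (T₀ : Subgroup ↥M).map M.subtype :=
    Subgroup.map_inf _ _ _ M.subtype_injective
  have hne' : (S₀ : Subgroup ↥M).map M.subtype ≠ (T₀ : Subgroup ↥M).map M.subtype := by
    intro e
    apply hne
    apply Sylow.ext
    exact Subgroup.map_injective M.subtype_injective e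
  have hint' : (S₀ : Subgroup ↥M).map M.subtype ⊓ (T₀ : Subgroup ↥M).map M.subtype ≠ ⊥ := by
    rw [← hinf]; intro e; apply hint
    exact (Subgroup.map_eq_bot_iff_of_injective _ M.subtype_injective).mp e
  obtain ⟨B₀, hB, hL⟩ := linked_of_rlinked M (h _ _ (isSylowIn_map_subtype M S₀)
    (isSylowIn_map_subtype M T₀) hne' hint') S₀ rfl
  have hBT : B₀ = T₀ := Sylow.ext (Subgroup.map_injective M.subtype_injective hB)
  rw [hBT, ← hinf, Subgroup.comap_map_eq_self_of_injective M.subtype_injective] at hL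
  exact hL

theorem isFunctorRegular_iff_regIn [Finite G] [Fact p.Prime] {f : Subgroup G → Set (Subgroup G)}
    (hf : Cfsg.IsNormalizerFunctor p f) (M : Subgroup G) :
    Cfsg.IsFunctorRegular p f M ↔ RegIn p f M :=
  ⟨regIn_of_isFunctorRegular hf, isFunctorRegular_of_regIn⟩

end Cfsg.Agent.Lib.Helper18
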