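import Cfsg.Prelude.Def_SylowChains
import Cfsg.Agent.Lib.Helper18.SylowRel
import Cfsg.Agent.Lib.Helper18.SylowL

set_option autoImplicit false

namespace Cfsg.Agent.Lib.Helper18

variable {G : Type*} [Group G] {p : ℕ}

theorem mem_sylowMembers_iff {𝓕 : Set (Subgroup G)} {S X : Subgroup G} :
    X ∈ Cfsg.sylowMembers p 𝓕 S ↔ X ∈ 𝓕 ∧ IsSylowIn p (S ⊓ X) X := by
  constructor
  · rintro ⟨h1, P, hP⟩
    exact ⟨h1, hP ▸ isSylowIn_map_subtype X P⟩
  · rintro ⟨h1, h2⟩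
    exact ⟨h1, h2.exists_sylow⟩

theorem map_conj_mem_of_isNormalSet {𝓕 : Set (Subgroup G)} (h𝓕 : Cfsg.IsNormalSet 𝓕)
    {X : Subgroup G} (hX : X ∈ 𝓕) (g : G) : X.map (MulAut.conj g).toMonoidHom ∈ 𝓕 := by
  have := h𝓕 X hX g⁻¹
  unfold Cfsg.subgroupConjRight at this
  rwa [inv_inv] at this

theorem sylowMembers_map_conj {𝓕 : Set (Subgroup G)} (h𝓕 : Cfsg.IsNormalSet 𝓕)
    {S X : Subgroup G} (hX : X ∈ Cfsg.sylowMembers p 𝓕 S) (g : G) :
    X.map (MulAut.conj g).toMonoidHom ∈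
      Cfsg.sylowMembers p 𝓕 (S.map (MulAut.conj g).toMonoidHom) := by
  rw [mem_sylowMembers_iff] at hX ⊢
  refine ⟨map_conj_mem_of_isNormalSet h𝓕 hX.1 g, ?_⟩
  have := hX.2.map_conj g
  rwa [Subgroup.map_inf _ _ _ (MulAut.conj g).injective] at this

theorem map_conj_inv_map_conj (X : Subgroup G) (g : G) :
    (X.map (MulAut.conj g).toMonoidHom).map (MulAut.conj g⁻¹).toMonoidHom = X := by
  rw [← map_conj_mul, inv_mul_cancel, map_conj_one]

theorem map_conj_map_conj_inv (X : Subgroup G) (g : G) :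
    (X.map (MulAut.conj g⁻¹).toMonoidHom).map (MulAut.conj g).toMonoidHom = X := by
  rw [← map_conj_mul, mul_inv_cancel, map_conj_one]

theorem map_conj_eq_iff (X Y : Subgroup G) (g : G) :
    X.map (MulAut.conj g).toMonoidHom = Y ↔ X = Y.map (MulAut.conj g⁻¹).toMonoidHom := by
  constructor
  · rintro rfl; rw [map_conj_inv_map_conj]
  · rintro rfl; rw [map_conj_map_conj_inv]

end Cfsg.Agent.Lib.Helper18
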