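import Cfsg.Agent.Lib.Helper18.SylCtl

set_option autoImplicit false

namespace Cfsg.Agent.Lib.Helper18

variable {G : Type*} [Group G] {p : ℕ}

/-- `S` and `T` are joined by a chain of Sylow subgroups, consecutive ones linked through members
of `𝓕`, all links containing `D` (inductive form of the chains of `ControlsSylowIntersections`). -/
inductive Linked (p : ℕ) (𝓕 : Set (Subgroup G)) (D : Subgroup G) : Sylow p G → Sylow p G → Prop
  | refl (S : Sylow p G) : Linked p 𝓕 D S S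
  | step {S S' T : Sylow p G} (X : Subgroup G) (x : G)
      (h1 : X ∈ Cfsg.sylowMembers p 𝓕 (S : Subgroup G))
      (h2 : X ∈ Cfsg.sylowMembers p 𝓕 (S' : Subgroup G)) (hx : x ∈ X)
      (hc : Cfsg.subgroupConjRight x (S' : Subgroup G) = (S : Subgroup G))
      (hD : D ≤ (S' : Subgroup G) ⊓ X) (h : Linked p 𝓕 D S' T) : Linked p 𝓕 D S T

theorem Linked.trans {𝓕 : Set (Subgroup G)} {D : Subgroup G} {S T U : Sylow p G}
    (h1 : Linked p 𝓕 D S T) (h2 : Linked p 𝓕 D T U) : Linked p 𝓕 D S U := by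
  induction h1 with
  | refl S => exact h2
  | step X x h1 h2' hx hc hD h ih => exact Linked.step X x h1 h2' hx hc hD (ih h2)

theorem Linked.mono {𝓕 𝓕' : Set (Subgroup G)} {D D' : Subgroup G} (h𝓕 : 𝓕 ⊆ 𝓕') (hD : D' ≤ D)
    {S T : Sylow p G} (h : Linked p 𝓕 D S T) : Linked p 𝓕' D' S T := by
  induction h with
  | refl S => exact Linked.refl S
  | step X x h1 h2 hx hc hD' h ih =>
    exact Linked.step X x ⟨h𝓕 h1.1, h1.2⟩ ⟨h𝓕 h2.1, h2.2⟩ hx hc (hD.trans hD') ih

theorem Linked.symm {𝓕 : Set (Subgroup G)} {D : Subgroup G} {S T : Sylow p G}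
    (h : Linked p 𝓕 D S T) (hDS : D ≤ (S : Subgroup G)) : Linked p 𝓕 D T S := by
  induction h with
  | refl S => exact Linked.refl S
  | step X x h1 h2 hx hc hD h ih =>
    have h3 := ih (hD.trans inf_le_left)
    refine h3.trans (Linked.step X x⁻¹ h2 h1 (X.inv_mem hx) ?_
      (le_inf hDS (hD.trans inf_le_right)) (Linked.refl _))
    unfold Cfsg.subgroupConjRight at hc ⊢
    rw [inv_inv, ← hc, map_conj_map_conj_inv]

theorem linked_of_chain {𝓕 : Set (Subgroup G)} {D : Subgroup G} :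
    ∀ (n : ℕ) (c : Fin (n + 1) → Sylow p G) (X : Fin n → Subgroup G) (x : Fin n → G),
      (∀ i : Fin n, X i ∈ Cfsg.sylowMembers p 𝓕 (c i.castSucc : Subgroup G) ∧
        X i ∈ Cfsg.sylowMembers p 𝓕 (c i.succ : Subgroup G) ∧ x i ∈ X i ∧
        Cfsg.subgroupConjRight (x i) (c i.succ : Subgroup G) = (c i.castSucc : Subgroup G) ∧
        D ≤ (c i.succ : Subgroup G) ⊓ X i) →
      Linked p 𝓕 D (c 0) (c (Fin.last n)) := by
  intro n
  induction n with
  | zero => intro c X x _; exact Linked.refl _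
  | succ n ih =>
    intro c X x h
    obtain ⟨h1, h2, hx, hc, hD⟩ := h 0
    have h3 := ih (fun i => c i.succ) (fun i => X i.succ) (fun i => x i.succ) (fun i => h i.succ)
    exact Linked.step (X 0) (x 0) h1 h2 hx hc hD h3

theorem chain_of_linked {𝓕 : Set (Subgroup G)} {D : Subgroup G} {S T : Sylow p G}
    (h : Linked p 𝓕 D S T) :
    ∃ (n : ℕ) (c : Fin (n + 1) → Sylow p G) (X : Fin n → Subgroup G) (x : Fin n → G),
      c 0 = S ∧ c (Fin.last n) = T ∧
      ∀ i : Fin n, X i ∈ Cfsg.sylowMembers p 𝓕 (c i.castSucc : Subgroup G) ∧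
        X i ∈ Cfsg.sylowMembers p 𝓕 (c i.succ : Subgroup G) ∧ x i ∈ X i ∧
        Cfsg.subgroupConjRight (x i) (c i.succ : Subgroup G) = (c i.castSucc : Subgroup G) ∧
        D ≤ (c i.succ : Subgroup G) ⊓ X i := by
  induction h with
  | refl S => exact ⟨0, fun _ => S, Fin.elim0, Fin.elim0, rfl, rfl, fun i => i.elim0⟩
  | @step S S' T X₀ x₀ h1 h2 hx hc hD h ih =>
    obtain ⟨n, c, X, x, hc0, hcn, hall⟩ := ih
    refine ⟨n + 1, Fin.cons S c, Fin.cons X₀ X, Fin.cons x₀ x, rfl, ?_, ?_⟩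
    · rw [← Fin.succ_last, Fin.cons_succ]; exact hcn
    · intro i
      refine Fin.cases ?_ ?_ i
      · show X₀ ∈ Cfsg.sylowMembers p 𝓕 (S : Subgroup G) ∧
          X₀ ∈ Cfsg.sylowMembers p 𝓕 (c 0 : Subgroup G) ∧ x₀ ∈ X₀ ∧
          Cfsg.subgroupConjRight x₀ (c 0 : Subgroup G) = (S : Subgroup G) ∧
          D ≤ (c 0 : Subgroup G) ⊓ X₀
        rw [hc0]; exact ⟨h1, h2, hx, hc, hD⟩
      · intro j
        exact hall j

theorem controls_iff_linked {𝓕 : Set (Subgroup G)} :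
    Cfsg.ControlsSylowIntersections p 𝓕 ↔
      ∀ S T : Sylow p G, S ≠ T → (S : Subgroup G) ⊓ (T : Subgroup G) ≠ ⊥ →
        Linked p 𝓕 ((S : Subgroup G) ⊓ (T : Subgroup G)) S T := by
  constructor
  · intro h S T hne hint
    obtain ⟨n, c, X, x, hc0, hcn, hall⟩ := h S T hne hint
    have := linked_of_chain n c X x hall
    rwa [hc0, hcn] at this
  · intro h S T hne hint
    exact chain_of_linked (h S T hne hint)

/-- A Sylow subgroup `A` for which `X` is a Sylow member contains... is contained in `X`, as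
soon as `X` contains some Sylow subgroup. -/
theorem sylow_le_of_mem_sylowMembers [Finite G] [Fact p.Prime] {𝓕 : Set (Subgroup G)}
    {X : Subgroup G} (P A : Sylow p G) (hPX : (P : Subgroup G) ≤ X)
    (hA : X ∈ Cfsg.sylowMembers p 𝓕 (A : Subgroup G)) : (A : Subgroup G) ≤ X := by
  obtain ⟨-, Q, hQ⟩ := hA
  have h1 : Nat.card ((A : Subgroup G) ⊓ X : Subgroup G) = Nat.card (A : Subgroup G) := by
    rw [← hQ, Subgroup.card_map_of_injective X.subtype_injective, Q.card_eq_multiplicity,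
      A.card_eq_multiplicity, factorization_eq_of_sylow_le P hPX]
  have h2 : (A : Subgroup G) ⊓ X = (A : Subgroup G) :=
    Subgroup.eq_of_le_of_card_ge inf_le_left (le_of_eq h1.symm)
  rw [← h2]; exact inf_le_right

theorem mem_sylowMembers_of_le {𝓕 : Set (Subgroup G)} {X : Subgroup G} (A : Sylow p G)
    (hX : X ∈ 𝓕) (hAX : (A : Subgroup G) ≤ X) : X ∈ Cfsg.sylowMembers p 𝓕 (A : Subgroup G) := by
  rw [mem_sylowMembers_iff]
  refine ⟨hX, ?_⟩
  rw [inf_eq_left.mpr hAX]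
  exact isSylowIn_of_sylow_le A hAX

end Cfsg.Agent.Lib.Helper18
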